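import Mathlib

/-!
# Closures of conjugates (helper272, for S3509)
-/

set_option autoImplicit false

namespace Cfsg.Agent.H272.RCly

open Subgroup

section closures

variable {G : Type*} [Group G]

/-- the closure of the conjugates under the elements with `P` -/
def Cc (P : G → Prop) (w : G) : Subgroup G := closure {z | ∃ c : G, P c ∧ z = c * w * c⁻¹}

theorem mem_cc {P : G → Prop} {w c : G} (hc : P c) : c * w * c⁻¹ ∈ Cc P w := subset_closure ⟨c, hc, rfl⟩

theorem conj_cc {P : G → Prop} (hmul : ∀ a b, P a → P b → P (a * b)) {w c : G} (hc : P c) {z : G} (hz : z ∈ Cc P w) :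
    c * z * c⁻¹ ∈ Cc P w := by
  unfold Cc at hz
  refine closure_induction (p := fun z _ => c * z * c⁻¹ ∈ Cc P w) ?_ ?_ ?_ ?_ hz
  · rintro _ ⟨u, hu, rfl⟩
    have e : c * (u * w * u⁻¹) * c⁻¹ = (c * u) * w * (c * u)⁻¹ := by group
    rw [e]
    exact mem_cc (hmul _ _ hc hu)
  · simp [one_mem]
  · intro a b _ _ ha hb
    have e : c * (a * b) * c⁻¹ = (c * a * c⁻¹) * (c * b * c⁻¹) := by group
    rw [e]
    exact mul_mem ha hb
  · intro a _ ha
    have e : c * a⁻¹ * c⁻¹ = (c * a * c⁻¹)⁻¹ := by group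
    rw [e]
    exact inv_mem ha

theorem cc_mono {P Q : G → Prop} (h : ∀ c, P c → Q c) (w : G) : Cc P w ≤ Cc Q w := by
  refine closure_mono ?_
  rintro z ⟨c, hc, hz⟩
  exact ⟨c, h c hc, hz⟩

end closures

end Cfsg.Agent.H272.RCly
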