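import Cfsg.Agent.H272.RC.Cc
import Cfsg.Agent.H31.RC.Spor.Gen
import Cfsg.Agent.J4Type.DuadCent
import Cfsg.Agent.J4Type.FusionCent
import Cfsg.Agent.SporadicA.M24Trans
import Cfsg.Agent.H395.EPM.Perm
import Cfsg.Agent.H715.Fpr.MathData
import Cfsg.Agent.H857.EA

/-!
# Regular cycles (S3509), groups of type `J4`: involutions (helper272)

`t = ε {none, some 0}` (the duad), `z` (2-central).

* `t_mem_duad` : `t` is in the closure of the conjugates of `y` under `C(t)`, `y ∈ C(t)` of odd order;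
* `z_mem`      : the same for `z`;
* `inv_mem`    : the same for all involutions;
* `no_pair`    : no commuting elements of different odd prime orders in `C(t)`.
-/

set_option autoImplicit false
open Cfsg

namespace Cfsg.Agent.H272.RCj4

open Subgroup Equiv Cfsg.Agent.J4Type
open Cfsg.Agent.H272.RCly (Cc mem_cc conj_cc)
open scoped Pointwise

variable {G : Type*} [Group G] (K : Frame G)

/-- the duad -/
def tt : G := K.ε {none, some 0}

theorem even_pair {a b : GolayPt} (h : a ≠ b) : Even (({a, b} : Finset GolayPt)).card := by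
  rw [Finset.card_pair h]
  decide

theorem ns : (none : GolayPt) ≠ some 0 := by decide

theorem E_comm {a b : G} (ha : a ∈ K.E hex0) (hb : b ∈ K.E hex0) : a * b = b * a :=
  (K.E_elem hex0 FusionConj.isHex_hex0).2 a ha b hb

theorem E_sq {a : G} (ha : a ∈ K.E hex0) : a * a = 1 := (K.E_elem hex0 FusionConj.isHex_hex0).1 a ha

theorem tt_mem : tt K ∈ K.E hex0 := K.ε_mem _ (even_pair ns)

theorem tt_sq : tt K * tt K = 1 := E_sq K (tt_mem K)

theorem tt_ne : tt K ≠ 1 := DuadUniq.duad_ne_one K ns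

/-- `M24` is transitive on sequences of four points -/
theorem exists_map4 {a b : Fin 4 → GolayPt} (ha : Function.Injective a) (hb : Function.Injective b) :
    ∃ g : M24, ∀ i, (g : Perm GolayPt) (a i) = b i := by
  have h5 : MulAction.IsMultiplyPretransitive M24 GolayPt 5 := Cfsg.Agent.SporadicA.M24Trans.five_transitive
  have h4 : MulAction.IsMultiplyPretransitive M24 GolayPt 4 :=
    MulAction.isMultiplyPretransitive_of_le (n := 5) (by norm_num) (by simp [GolayPt])
  obtain ⟨g, hg⟩ := MulAction.exists_smul_eq M24 (⟨a, ha⟩ : Fin 4 ↪ GolayPt) ⟨b, hb⟩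
  exact ⟨g, fun i => DFunLike.congr_fun hg i⟩

/-- one duad outside of `{none, some 0}` gives all of them -/
theorem duad_all {A : Subgroup G} (hA : ∀ n ∈ normalizer (K.E hex0 : Set G), n * tt K = tt K * n → ∀ a ∈ A,
    n * a * n⁻¹ ∈ A) {c d : GolayPt} (hcd : c ≠ d) (hc : c ≠ none) (hc' : c ≠ some 0) (hd : d ≠ none)
    (hd' : d ≠ some 0) (h : K.ε {c, d} ∈ A) {e f : GolayPt} (hef : e ≠ f) (he : e ≠ none) (he' : e ≠ some 0)
    (hf : f ≠ none) (hf' : f ≠ some 0) : K.ε {e, f} ∈ A := by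
  have inj : ∀ {c d : GolayPt}, c ≠ d → c ≠ none → c ≠ some 0 → d ≠ none → d ≠ some 0 →
      Function.Injective (![none, some 0, c, d] : Fin 4 → GolayPt) := by
    intro c d h1 h2 h3 h4 h5
    intro i j hij
    fin_cases i <;> fin_cases j <;> simp_all [eq_comm]
  obtain ⟨g, hg⟩ := exists_map4 (inj hcd hc hc' hd hd') (inj hef he he' hf hf')
  have g0 : (g : Perm GolayPt) none = none := hg 0
  have g1 : (g : Perm GolayPt) (some 0) = some 0 := hg 1
  have g2 : (g : Perm GolayPt) c = e := hg 2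
  have g3 : (g : Perm GolayPt) d = f := hg 3
  obtain ⟨n, hn⟩ := K.π_surj g
  have h1 : (n : G) * tt K * (n : G)⁻¹ = tt K := by
    rw [tt, K.π_smul n _ (even_pair ns), hn, DuadM24.smul_pair, g0, g1]
  have h2 : (n : G) * K.ε {c, d} * (n : G)⁻¹ = K.ε {e, f} := by
    rw [K.π_smul n _ (even_pair hcd), hn, DuadM24.smul_pair, g2, g3]
  rw [← h2]
  exact hA n n.2 (mul_inv_eq_iff_eq_mul.1 h1) _ h

theorem hex_eq : hex0 = symmDiff ({none, some 0} : Finset GolayPt) (symmDiff {gp 2, gp 4}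
    (symmDiff {gp 5, gp 6} {gp 10, gp 11})) := by decide +kernel

theorem tt_mem_of_duads {A : Subgroup G}
    (h : ∀ e f : GolayPt, e ≠ f → e ≠ none → e ≠ some 0 → f ≠ none → f ≠ some 0 → K.ε {e, f} ∈ A) : tt K ∈ A := by
  have h1 : K.ε hex0 = 1 := by
    refine (K.ε_ker hex0 (by decide +kernel)).2 ?_
    exact FusionConj.isHex_hex0.1.1
  rw [hex_eq, K.ε_mul _ _ (even_pair ns) (by decide +kernel), K.ε_mul _ _ (by decide +kernel) (by decide +kernel),
    K.ε_mul _ _ (by decide +kernel) (by decide +kernel)] at h1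
  have h2 : tt K = (K.ε {gp 2, gp 4} * (K.ε {gp 5, gp 6} * K.ε {gp 10, gp 11}))⁻¹ := eq_inv_of_mul_eq_one_left h1
  rw [h2]
  refine inv_mem (mul_mem (h _ _ ?_ ?_ ?_ ?_ ?_) (mul_mem (h _ _ ?_ ?_ ?_ ?_ ?_) (h _ _ ?_ ?_ ?_ ?_ ?_))) <;>
    decide +kernel

/-- the permutation of an element of odd order commuting with the duad -/
theorem exists_perm [Finite G] {y : G} {n : ℕ} (hn : Odd n) (hy : y ^ n = 1) (hyt : y * tt K = tt K * y) :
    ∃ m : normalizer (K.E hex0 : Set G), (m : G) = y ∧ ((K.π m : M24) : Perm GolayPt) ∈ Spor.M22 := by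
  refine ⟨⟨y, DuadCent.duad_cent K ns hyt⟩, rfl, ?_⟩
  set m : normalizer (K.E hex0 : Set G) := ⟨y, DuadCent.duad_cent K ns hyt⟩ with hm
  have h1 : (m : G) * K.ε {none, some 0} * (m : G)⁻¹ = K.ε {none, some 0} := mul_inv_eq_iff_eq_mul.2 hyt
  rw [K.π_smul m _ (even_pair ns), DuadM24.smul_pair] at h1
  have hne : ((K.π m : M24) : Perm GolayPt) none ≠ ((K.π m : M24) : Perm GolayPt) (some 0) :=
    fun h => ns ((Equiv.injective _) h)
  have h2 := DuadUniq.duad_inj K hne ns h1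
  refine H395.EPM.mem22_of_odd ?_ ?_
  · rw [Cfsg.Agent.J4Type.Aut22.mem_D22_iff]
    refine ⟨(K.π m).2, ?_⟩
    have h3 : ((K.π m : M24) : Perm GolayPt) none ∈ ({none, some 0} : Finset GolayPt) := by rw [← h2]; simp
    have h4 : ((K.π m : M24) : Perm GolayPt) (some 0) ∈ ({none, some 0} : Finset GolayPt) := by rw [← h2]; simp
    rw [Finset.mem_insert, Finset.mem_singleton] at h3 h4
    rcases h3 with h3 | h3
    · left
      refine ⟨h3, h4.resolve_left fun h => hne (h3.trans h.symm)⟩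
    · right
      refine ⟨h3, h4.resolve_right fun h => hne (h3.trans h.symm)⟩
  · have h5 : ((K.π m : M24) : Perm GolayPt) ^ n = 1 := by
      have h6 : m ^ n = 1 := Subtype.ext hy
      have h7 : (K.π m) ^ n = 1 := by rw [← map_pow, h6, map_one]
      exact congrArg Subtype.val h7
    exact Odd.of_dvd_nat hn (orderOf_dvd_of_pow_eq_one h5)

theorem not_mem_E {y : G} {n : ℕ} (hn : Odd n) (hy : y ^ n = 1) (hy1 : y ≠ 1) : y ∉ K.E hex0 := by
  intro h
  obtain ⟨k, rfl⟩ := hn
  apply hy1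
  rwa [pow_succ, pow_mul, pow_two, E_sq K h, one_pow, one_mul] at hy

theorem t_mem_duad [Finite G] {y : G} {n : ℕ} (hn : Odd n) (hy : y ^ n = 1) (hy1 : y ≠ 1)
    (hyt : y * tt K = tt K * y) : tt K ∈ Cc (fun c => c * tt K = tt K * c) y := by
  have hPm : ∀ a b : G, a * tt K = tt K * a → b * tt K = tt K * b → a * b * tt K = tt K * (a * b) :=
    fun a b ha hb => by rw [mul_assoc, hb, ← mul_assoc, ha, mul_assoc]
  set A := Cc (fun c => c * tt K = tt K * c) y with hA
  have hyA : y ∈ A := by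
    have := mem_cc (P := fun c => c * tt K = tt K * c) (w := y) (c := 1) (by rw [one_mul, mul_one])
    rwa [one_mul, inv_one, mul_one] at this
  have hconj : ∀ c : G, c * tt K = tt K * c → ∀ a ∈ A, c * a * c⁻¹ ∈ A := fun c hc a ha =>
    conj_cc (P := fun c => c * tt K = tt K * c) hPm hc ha
  obtain ⟨m, rfl, hm⟩ := exists_perm K hn hy hyt
  have h22 : ((K.π m : M24) : Perm GolayPt) none = none ∧ ((K.π m : M24) : Perm GolayPt) (some 0) = some 0 :=
    ⟨hm.1.2, hm.2⟩
  have hσ1 : ((K.π m : M24) : Perm GolayPt) ≠ 1 := by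
    intro h
    exact not_mem_E K hn hy hy1 ((K.π_ker m).1 (Subtype.ext h))
  obtain ⟨c, hc⟩ : ∃ c, ((K.π m : M24) : Perm GolayPt) c ≠ c := by
    by_contra h
    push Not at h
    exact hσ1 (Equiv.ext h)
  set σ := ((K.π m : M24) : Perm GolayPt) with hσ
  have hcn : c ≠ none := by rintro rfl; exact hc h22.1
  have hc0 : c ≠ some 0 := by rintro rfl; exact hc h22.2
  have hσn : σ c ≠ none := fun h => hcn (σ.injective (h.trans h22.1.symm))
  have hσ0 : σ c ≠ some 0 := fun h => hc0 (σ.injective (h.trans h22.2.symm))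
  -- the commutator with the duad `{none, c}`
  have hv : K.ε {none, c} ∈ K.E hex0 := K.ε_mem _ (even_pair hcn.symm)
  have hvt : K.ε {none, c} * tt K = tt K * K.ε {none, c} := E_comm K hv (tt_mem K)
  have h1 : K.ε {none, c} * (m : G) * (K.ε {none, c})⁻¹ * (m : G)⁻¹ ∈ A := mul_mem (hconj _ hvt _ hyA) (inv_mem hyA)
  have h2 : (m : G) * K.ε {none, c} * (m : G)⁻¹ = K.ε {none, σ c} := by
    rw [K.π_smul m _ (even_pair hcn.symm), DuadM24.smul_pair, h22.1]
  have h3 : K.ε {none, c} * (m : G) * (K.ε {none, c})⁻¹ * (m : G)⁻¹ = K.ε {c, σ c} := by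
    have e1 : K.ε {none, c} * (m : G) * (K.ε {none, c})⁻¹ * (m : G)⁻¹ =
        K.ε {none, c} * ((m : G) * K.ε {none, c} * (m : G)⁻¹)⁻¹ := by group
    have e2 : (K.ε {none, σ c})⁻¹ = K.ε {none, σ c} :=
      inv_eq_of_mul_eq_one_left (E_sq K (K.ε_mem _ (even_pair hσn.symm)))
    rw [e1, h2, e2, ← K.ε_mul _ _ (even_pair hcn.symm) (even_pair hσn.symm)]
    congr 1
    ext x
    simp only [Finset.mem_symmDiff, Finset.mem_insert, Finset.mem_singleton]
    by_cases hx0 : x = none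
    · subst hx0
      simp [hcn.symm, hσn.symm]
    by_cases hxc : x = c
    · subst hxc
      simp [hx0, hc.symm]
    by_cases hxs : x = σ c
    · subst hxs
      simp [hx0, hxc]
    · simp [hx0, hxc, hxs]
  rw [h3] at h1
  exact tt_mem_of_duads K fun e f hef he he' hf hf' =>
    duad_all K (fun n _ hn a ha => hconj n hn a ha) hc.symm hcn hc0 hσn hσ0 h1 hef he he' hf hf'

/-- `z` -/
theorem z_mem (C : Cent G) {y : G} {r : ℕ} (hr : r.Prime) (hr2 : r ≠ 2) (hy : y ^ r = 1) (hy1 : y ≠ 1)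
    (hyz : y * C.z = C.z * y) : C.z ∈ Cc (fun c => c * C.z = C.z * c) y := by
  have L := FusionCent.large C
  have h1 := H31.RC.Spor.Large.mem_cmm L hyz (H31.RC.Spor.Large.not_cent L hyz hr hr2 hy hy1)
  refine (show H380.RC.cmm C.Q y ≤ _ from ?_) h1
  unfold H380.RC.cmm
  rw [closure_le]
  rintro _ ⟨u, hu, rfl⟩
  have h2 := mem_cc (P := fun c => c * C.z = C.z * c) (w := y) (c := u) (L.comm_z u hu)
  have h3 := mem_cc (P := fun c => c * C.z = C.z * c) (w := y) (c := 1) (by rw [one_mul, mul_one])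
  rw [one_mul, inv_one, mul_one] at h3
  exact mul_mem h2 (inv_mem h3)

theorem cc_conj {t y : G} (g : G) (h : t ∈ Cc (fun c => c * t = t * c) y) :
    g * t * g⁻¹ ∈ Cc (fun c => c * (g * t * g⁻¹) = g * t * g⁻¹ * c) (g * y * g⁻¹) := by
  have h1 : (Cc (fun c => c * t = t * c) y).map (MulAut.conj g).toMonoidHom ≤
      Cc (fun c => c * (g * t * g⁻¹) = g * t * g⁻¹ * c) (g * y * g⁻¹) := by
    rw [Cc, MonoidHom.map_closure, closure_le]
    rintro _ ⟨_, ⟨c, hc, rfl⟩, rfl⟩
    have e : (MulAut.conj g).toMonoidHom (c * y * c⁻¹) = (g * c * g⁻¹) * (g * y * g⁻¹) * (g * c * g⁻¹)⁻¹ := by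
      show g * (c * y * c⁻¹) * g⁻¹ = _
      group
    rw [e]
    refine mem_cc (P := fun c => c * (g * t * g⁻¹) = g * t * g⁻¹ * c) ?_
    calc g * c * g⁻¹ * (g * t * g⁻¹) = g * (c * t) * g⁻¹ := by group
      _ = g * t * g⁻¹ * (g * c * g⁻¹) := by rw [hc]; group
  exact h1 ⟨t, h, rfl⟩

theorem comm_conj {t y g : G} (h : y * (g * t * g⁻¹) = g * t * g⁻¹ * y) : (g⁻¹ * y * g) * t = t * (g⁻¹ * y * g) := by
  calc (g⁻¹ * y * g) * t = g⁻¹ * (y * (g * t * g⁻¹)) * g := by group
    _ = t * (g⁻¹ * y * g) := by rw [h]; group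

/-- the classes of involutions -/
theorem inv_cases [Finite G] [IsSimpleGroup G] (C : J4Type.Compl G) {t : G} (ht : t * t = 1) (ht1 : t ≠ 1) :
    (∃ g : G, g * C.z * g⁻¹ = t) ∨ ∃ g : G, g * tt C.toFrame * g⁻¹ = t := by
  rcases Cfsg.Agent.H857.EA.classes C ht ht1 with h | ⟨p, q, g, hpq, hg⟩
  · exact Or.inl h
  · right
    obtain ⟨n, -, hn⟩ := CloseInst.conj_duad C.toFrame ns hpq
    refine ⟨g * n, ?_⟩
    rw [← hg, ← hn, tt]
    group

/-- **involutions are in the normal closures of the elements of odd prime order of their centralisers** -/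
theorem inv_mem_cc [Finite G] [IsSimpleGroup G] (C : J4Type.Compl G) {t y : G} (ht : t * t = 1) (ht1 : t ≠ 1) {r : ℕ}
    (hr : r.Prime) (hr2 : r ≠ 2) (hy : y ^ r = 1) (hy1 : y ≠ 1) (hyt : y * t = t * y) :
    t ∈ Cc (fun c => c * t = t * c) y := by
  have key : ∀ g : G, (g⁻¹ * y * g) ^ r = 1 ∧ g⁻¹ * y * g ≠ 1 ∧ g * (g⁻¹ * y * g) * g⁻¹ = y := by
    intro g
    refine ⟨?_, ?_, by group⟩
    · have : (g⁻¹ * y * g) ^ r = g⁻¹ * y ^ r * g := by
        have := conj_pow (i := r) (a := g⁻¹) (b := y)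
        rwa [inv_inv] at this
      rw [this, hy, mul_one, inv_mul_cancel]
    · intro h
      apply hy1
      calc y = g * (g⁻¹ * y * g) * g⁻¹ := by group
        _ = 1 := by rw [h]; group
  rcases inv_cases C ht ht1 with ⟨g, rfl⟩ | ⟨g, rfl⟩
  · obtain ⟨h1, h2, h3⟩ := key g
    have h4 := cc_conj g (z_mem C.toCent hr hr2 h1 h2 (comm_conj hyt))
    rwa [h3] at h4
  · obtain ⟨h1, h2, h3⟩ := key g
    have h4 := cc_conj g (t_mem_duad C.toFrame (hr.odd_of_ne_two hr2) h1 h2 (comm_conj hyt))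
    rwa [h3] at h4

/-- an element of order `p ∈ {5, 7, 11}` of `M22` commutes with no element of another prime order -/
theorem m22_self {x y : Spor.M22} {p q : ℕ} (hp : p = 5 ∨ p = 7 ∨ p = 11) (hq : q.Prime) (hpq : p ≠ q)
    (hx : orderOf x = p) (hy : orderOf y = q) (hyx : y * x = x * y) : False := by
  have hp' : p.Prime := by rcases hp with rfl | rfl | rfl <;> norm_num
  have h1 : Nat.card (centralizer ((zpowers x : Subgroup Spor.M22) : Set Spor.M22)) = p := by
    have h2 : Nat.card (zpowers x) = p := by rw [Nat.card_zpowers, hx]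
    rcases hp with rfl | rfl | rfl
    · exact (H715.Fpr.MathData.cn22_5 h2).1
    · exact (H715.Fpr.MathData.cn22_7 h2).1
    · exact (H715.Fpr.MathData.cn22_11 h2).1
  have h3 : y ∈ centralizer ((zpowers x : Subgroup Spor.M22) : Set Spor.M22) := by
    rw [H715.Fpr.cent_zpowers']
    exact mem_centralizer_singleton_iff.2 hyx
  have h4 := Subgroup.orderOf_dvd_natCard _ h3
  rw [h1, hy] at h4
  exact hpq ((Nat.prime_dvd_prime_iff_eq hq hp').1 h4).symm

/-- no commuting elements of different odd prime orders in the centraliser of the duad -/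
theorem no_pair_tt [Finite G] {x y : G} {p q : ℕ} (hp : p.Prime) (hq : q.Prime) (hp2 : p ≠ 2) (hq2 : q ≠ 2)
    (hpq : p ≠ q) (hx : orderOf x = p) (hy : orderOf y = q) (hyx : y * x = x * y) (hxt : x * tt K = tt K * x)
    (hyt : y * tt K = tt K * y) : False := by
  have hord : ∀ {x : G} {p : ℕ} (m : normalizer (K.E hex0 : Set G)), p.Prime → p ≠ 2 → orderOf x = p → (m : G) = x →
      orderOf ((K.π m : M24) : Perm GolayPt) = p := by
    intro x p m hp hp2 hx hm
    have := Fact.mk hp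
    have hx1 : x ≠ 1 := by
      rintro rfl
      rw [orderOf_one] at hx
      exact hp.one_lt.ne hx
    rw [Subgroup.orderOf_coe]
    refine orderOf_eq_prime ?_ fun h => ?_
    · have h6 : m ^ p = 1 := Subtype.ext (by rw [SubgroupClass.coe_pow, hm, ← hx, pow_orderOf_eq_one]; rfl)
      rw [← map_pow, h6, map_one]
    · have h7 := (K.π_ker m).1 h
      rw [hm] at h7
      exact not_mem_E K (hp.odd_of_ne_two hp2) (by rw [← hx, pow_orderOf_eq_one]) hx1 h7
  obtain ⟨m, hm, hm22⟩ := exists_perm K (hp.odd_of_ne_two hp2) (by rw [← hx, pow_orderOf_eq_one]) hxt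
  obtain ⟨m', hm', hm'22⟩ := exists_perm K (hq.odd_of_ne_two hq2) (by rw [← hy, pow_orderOf_eq_one]) hyt
  have ho := hord m hp hp2 hx hm
  have ho' := hord m' hq hq2 hy hm'
  have hcom : m' * m = m * m' := Subtype.ext (by
    rw [Subgroup.coe_mul, Subgroup.coe_mul, hm, hm', hyx])
  have hcomπ : ((K.π m' : M24) : Perm GolayPt) * ((K.π m : M24) : Perm GolayPt) =
      ((K.π m : M24) : Perm GolayPt) * ((K.π m' : M24) : Perm GolayPt) := by
    have h1 : K.π m' * K.π m = K.π m * K.π m' := by rw [← map_mul, hcom, map_mul]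
    exact congrArg Subtype.val h1
  let x' : Spor.M22 := ⟨_, hm22⟩
  let y' : Spor.M22 := ⟨_, hm'22⟩
  have hx' : orderOf x' = p := (Subgroup.orderOf_mk _ hm22).trans ho
  have hy' : orderOf y' = q := (Subgroup.orderOf_mk _ hm'22).trans ho'
  have hyx' : y' * x' = x' * y' := Subtype.ext hcomπ
  have hcases : ∀ {r : ℕ}, r.Prime → r ≠ 2 → r ∣ Nat.card Spor.M22 → r = 3 ∨ r = 5 ∨ r = 7 ∨ r = 11 := by
    intro r hr hr2 hd
    rw [Cfsg.Agent.SporadicA.MathieuRecog.card_M22, show 443520 = 2 ^ 7 * (3 ^ 2 * (5 * (7 * 11))) by norm_num] at hd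
    rcases hr.dvd_mul.1 hd with h | h
    · exact absurd ((Nat.prime_dvd_prime_iff_eq hr Nat.prime_two).1 (hr.dvd_of_dvd_pow h)) hr2
    rcases hr.dvd_mul.1 h with h | h
    · exact Or.inl ((Nat.prime_dvd_prime_iff_eq hr Nat.prime_three).1 (hr.dvd_of_dvd_pow h))
    rcases hr.dvd_mul.1 h with h | h
    · exact Or.inr (Or.inl ((Nat.prime_dvd_prime_iff_eq hr Nat.prime_five).1 h))
    rcases hr.dvd_mul.1 h with h | h
    · exact Or.inr (Or.inr (Or.inl ((Nat.prime_dvd_prime_iff_eq hr (by norm_num)).1 h)))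
    · exact Or.inr (Or.inr (Or.inr ((Nat.prime_dvd_prime_iff_eq hr (by norm_num)).1 h)))
  have hpc := hcases hp hp2 (by rw [← hx']; exact orderOf_dvd_natCard x')
  have hqc := hcases hq hq2 (by rw [← hy']; exact orderOf_dvd_natCard y')
  rcases hpc with h | h
  · rcases hqc with h' | h'
    · exact hpq (h.trans h'.symm)
    · exact m22_self h' hp hpq.symm hy' hx' hyx'.symm
  · exact m22_self h hq hpq hx' hy' hyx'

end Cfsg.Agent.H272.RCj4
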